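import Mathlib
import Cfsg.Agent.H65.E6Emb

/-!
# S5749, S5750, box NOFIX: descent (helper8)

* `exists_rational` : a non-zero subspace of `k^n` stable under the coordinatewise Frobenius map contains a non-zero vector
  with coordinates in `F`;
* `ext_rat` : such a subspace is defined over `F`.
-/

set_option autoImplicit false

namespace Cfsg.Agent.R2.H8.NoFix.Desc

open Module
open Cfsg.Agent.H65.E6Emb (ext mem_ext_iff mem_ext_of_mem ext_le finrank_ext mem_range_of_pow)

universe u v w

variable {F : Type u} [Field F] [Fintype F] {k : Type v} [Field k] (f : F →+* k) {n : Type w} [Fintype n]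
  {s : k →+* k} (hs : ∀ x, s x = x ^ Fintype.card F)

include hs

omit [Fintype F] hs in
/-- vectors of minimal support, any semilinear map -/
theorem exists_fixed {t : k →+* k} {Y : Submodule k (n → k)} (hY : ∀ y ∈ Y, (fun i => t (y i)) ∈ Y) (h0 : Y ≠ ⊥) :
    ∃ y ∈ Y, y ≠ 0 ∧ ∀ i, t (y i) = y i := by
  classical
  have hex : ∃ c : ℕ, ∃ y ∈ Y, y ≠ 0 ∧ (Finset.univ.filter fun i => y i ≠ 0).card = c := by
    obtain ⟨y, hy, hy0⟩ := Submodule.exists_mem_ne_zero_of_ne_bot h0
    exact ⟨_, y, hy, hy0, rfl⟩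
  obtain ⟨y, hy, hy0, hc⟩ := Nat.find_spec hex
  have hmin : ∀ z ∈ Y, (Finset.univ.filter fun i => z i ≠ 0).card < (Finset.univ.filter fun i => y i ≠ 0).card →
      z = 0 := by
    intro z hz hlt
    by_contra hz0
    rw [hc] at hlt
    exact Nat.find_min hex hlt ⟨z, hz, hz0, rfl⟩
  obtain ⟨i0, hi0⟩ : ∃ i, y i ≠ 0 := by
    by_contra h
    push Not at h
    exact hy0 (funext h)
  let x : n → k := (y i0)⁻¹ • y
  have hx : x ∈ Y := Y.smul_mem _ hy
  have hx1 : x i0 = 1 := by
    show (y i0)⁻¹ * y i0 = 1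
    exact inv_mul_cancel₀ hi0
  have hx2 : (fun i => t (x i)) - x = 0 := by
    refine hmin _ (Y.sub_mem (hY x hx) hx) ?_
    apply Finset.card_lt_card
    rw [Finset.ssubset_iff_of_subset]
    · refine ⟨i0, by simpa using hi0, ?_⟩
      rw [Finset.mem_filter, not_and, not_not]
      intro _
      rw [Pi.sub_apply, hx1, map_one, sub_self]
    · intro i hi
      rw [Finset.mem_filter] at hi ⊢
      refine ⟨Finset.mem_univ _, fun h => hi.2 ?_⟩
      have h1 : x i = 0 := by
        show (y i0)⁻¹ * y i = 0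
        rw [h, mul_zero]
      rw [Pi.sub_apply, h1, map_zero, sub_self]
  refine ⟨x, hx, ?_, fun i => ?_⟩
  · intro h
    rw [h] at hx1
    exact zero_ne_one hx1
  · have h1 := congrFun hx2 i
    rw [Pi.sub_apply, Pi.zero_apply, sub_eq_zero] at h1
    exact h1

/-- the Frobenius map stabilizes the extensions of scalars -/
theorem ext_frob {W : Submodule F (n → F)} {y : n → k} (hy : y ∈ ext f W) : (fun i => s (y i)) ∈ ext f W := by
  unfold ext at hy
  induction hy using Submodule.span_induction with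
  | mem y hy =>
    obtain ⟨x, hx, rfl⟩ := hy
    have h1 : (fun i => s (f (x i))) = fun i => f (x i) := by
      funext i
      rw [hs, ← map_pow, FiniteField.pow_card]
    show (fun i => s (f (x i))) ∈ _
    rw [h1]
    exact mem_ext_of_mem hx
  | zero =>
    have h1 : (fun i => s ((0 : n → k) i)) = 0 := by
      funext i
      rw [Pi.zero_apply, map_zero]
    rw [h1]
    exact Submodule.zero_mem _
  | add a b _ _ ha hb =>
    have h1 : (fun i => s ((a + b) i)) = (fun i => s (a i)) + fun i => s (b i) := by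
      funext i
      rw [Pi.add_apply, map_add]
      rfl
    rw [h1]
    exact Submodule.add_mem _ ha hb
  | smul c a _ ha =>
    have h1 : (fun i => s ((c • a) i)) = s c • fun i => s (a i) := by
      funext i
      rw [Pi.smul_apply, smul_eq_mul, map_mul]
      rfl
    rw [h1]
    exact Submodule.smul_mem _ _ ha

omit [Fintype n] [Fintype F] hs in
/-- the rational vectors -/
def rat (f : F →+* k) (Y : Submodule k (n → k)) : Submodule F (n → F) where
  carrier := {v | (fun i => f (v i)) ∈ Y}
  add_mem' := by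
    intro a b ha hb
    have h1 : (fun i => f ((a + b) i)) = (fun i => f (a i)) + fun i => f (b i) := by
      funext i
      rw [Pi.add_apply, map_add]
      rfl
    show (fun i => f ((a + b) i)) ∈ Y
    rw [h1]
    exact Y.add_mem ha hb
  zero_mem' := by
    have h1 : (fun i => f ((0 : n → F) i)) = (0 : n → k) := by
      funext i
      rw [Pi.zero_apply, map_zero]
      rfl
    show (fun i => f ((0 : n → F) i)) ∈ Y
    rw [h1]
    exact Y.zero_mem
  smul_mem' := by
    intro c a ha
    have h1 : (fun i => f ((c • a) i)) = f c • fun i => f (a i) := by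
      funext i
      rw [Pi.smul_apply, smul_eq_mul, map_mul]
      rfl
    show (fun i => f ((c • a) i)) ∈ Y
    rw [h1]
    exact Y.smul_mem _ ha

omit [Fintype F] [Fintype n] hs in
theorem mem_rat {Y : Submodule k (n → k)} {v : n → F} : v ∈ rat f Y ↔ (fun i => f (v i)) ∈ Y := Iff.rfl

variable [DecidableEq n]

omit [DecidableEq n] in
theorem exists_rational {Y : Submodule k (n → k)} (hY : ∀ y ∈ Y, (fun i => s (y i)) ∈ Y) (h0 : Y ≠ ⊥) :
    ∃ v : n → F, v ≠ 0 ∧ (fun i => f (v i)) ∈ Y := by
  obtain ⟨y, hy, hy0, hyf⟩ := exists_fixed hY h0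
  choose v hv using fun i => mem_range_of_pow f (by rw [← hs]; exact hyf i : y i ^ Fintype.card F = y i)
  have h1 : (fun i => f (v i)) = y := funext hv
  refine ⟨v, ?_, by rw [h1]; exact hy⟩
  rintro rfl
  apply hy0
  rw [← h1]
  funext i
  rw [Pi.zero_apply, map_zero]
  rfl

/-- **descent** -/
theorem ext_rat {Y : Submodule k (n → k)} (hY : ∀ y ∈ Y, (fun i => s (y i)) ∈ Y) : ext f (rat f Y) = Y := by
  have hle : ext f (rat f Y) ≤ Y := ext_le fun x hx => hx
  obtain ⟨C, hC⟩ := Submodule.exists_isCompl (rat f Y)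
  have h1 : Y ⊓ ext f C = ⊥ := by
    by_contra h0
    obtain ⟨v, hv0, hv⟩ := exists_rational f hs (Y := Y ⊓ ext f C) (fun y hy => ⟨hY y hy.1, ext_frob f hs hy.2⟩) h0
    have h2 : v ∈ rat f Y ⊓ C := ⟨hv.1, mem_ext_iff.1 hv.2⟩
    rw [hC.inf_eq_bot, Submodule.mem_bot] at h2
    exact hv0 h2
  have h2 := Submodule.finrank_sup_add_finrank_inf_eq Y (ext f C)
  rw [h1, finrank_bot, add_zero, finrank_ext] at h2
  have h3 := Submodule.finrank_le (Y ⊔ ext f C)
  have h4 := Submodule.finrank_add_eq_of_isCompl hC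
  rw [finrank_fintype_fun_eq_card] at h3 h4
  apply Submodule.eq_of_le_of_finrank_le hle
  rw [finrank_ext]
  omega

theorem finrank_rat {Y : Submodule k (n → k)} (hY : ∀ y ∈ Y, (fun i => s (y i)) ∈ Y) :
    finrank F ↥(rat f Y) = finrank k ↥Y := by
  rw [← finrank_ext (f := f), ext_rat f hs hY]

end Cfsg.Agent.R2.H8.NoFix.Desc
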