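import Mathlib
import Cfsg.Agent.R2.SL2.Pat

/-!
# S5749, S5750, box NOFIX: arithmetic (helper8)

* `dvd_G`, `pat_five`, `pat_three`, `pat_two` : the possible orders of the group of field automorphisms;
* `arith` : the length of the orbit of the eigenvector.
-/

set_option autoImplicit false
set_option maxRecDepth 100000

namespace Cfsg.Agent.R2.H8.NoFix.Num

open Cfsg.Agent.R2.SL2

/-- the greatest common divisor of the numbers `length t * count t` -/
def G (w : List (List ℕ)) : ℕ := (w.map fun t => t.length * w.count t).foldr Nat.gcd 0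

theorem dvd_foldr {n : ℕ} : ∀ l : List ℕ, (∀ x ∈ l, n ∣ x) → n ∣ l.foldr Nat.gcd 0 := by
  intro l
  induction l with
  | nil => intro _; exact dvd_zero _
  | cons a l ih =>
    intro h
    rw [List.foldr_cons]
    exact Nat.dvd_gcd (h a (List.mem_cons_self ..)) (ih fun x hx => h x (List.mem_cons_of_mem _ hx))

theorem dvd_G {n : ℕ} {w : List (List ℕ)} (h : ∀ t, n ∣ t.length * w.count t) : n ∣ G w := by
  refine dvd_foldr _ fun x hx => ?_
  obtain ⟨t, -, rfl⟩ := List.mem_map.1 hx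
  exact h t

theorem chk_five : (listE6.all fun w => w.count [] == 0 || 8 % G w == 0 || 6 % G w == 0 ||
    (12 % G w == 0 && w.count [] ≤ 3)) = true := by decide +kernel

theorem chk_three : (listE6_3.all fun w => w.count [] == 0 || 8 % G w == 0 || 6 % G w == 0 ||
    (12 % G w == 0 && w.count [] ≤ 3)) = true := by decide +kernel

/-- the exceptional pattern -/
def wx : List (List ℕ) := [[], [], [], [], [], [], [], [], [], [1], [1], [1], [1], [1], [1], [1], [1], [1]]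

theorem chk_two : (listE6_2.all fun w => w.count [] == 0 || 8 % G w == 0 || 6 % G w == 0 ||
    (12 % G w == 0 && w.count [] ≤ 3) || (9 % G w == 0 && w.count [] ≤ 3) || w == wx) = true := by decide +kernel

theorem pat_odd {w : List (List ℕ)} (hw : w ∈ listE6 ∨ w ∈ listE6_3) (h0 : w.count [] ≠ 0) {n : ℕ}
    (h : ∀ t, n ∣ t.length * w.count t) : n ∣ 8 ∨ n ∣ 6 ∨ (n ∣ 12 ∧ w.count [] ≤ 3) := by
  have hG := dvd_G h
  have h1 : w.count [] == 0 || 8 % G w == 0 || 6 % G w == 0 || (12 % G w == 0 && w.count [] ≤ 3) := by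
    rcases hw with hw | hw
    · exact List.all_eq_true.1 chk_five w hw
    · exact List.all_eq_true.1 chk_three w hw
  simp only [Bool.or_eq_true, beq_iff_eq, Bool.and_eq_true, decide_eq_true_eq] at h1
  rcases h1 with ((h1 | h1) | h1) | ⟨h1, h2⟩
  · exact absurd h1 h0
  · exact Or.inl (hG.trans (Nat.dvd_of_mod_eq_zero h1))
  · exact Or.inr (Or.inl (hG.trans (Nat.dvd_of_mod_eq_zero h1)))
  · exact Or.inr (Or.inr ⟨hG.trans (Nat.dvd_of_mod_eq_zero h1), h2⟩)

theorem pat_two {w : List (List ℕ)} (hw : w ∈ listE6_2) (h0 : w.count [] ≠ 0) (hx : w ≠ wx) {n : ℕ}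
    (h : ∀ t, n ∣ t.length * w.count t) :
    n ∣ 8 ∨ n ∣ 6 ∨ (n ∣ 12 ∧ w.count [] ≤ 3) ∨ (n ∣ 9 ∧ w.count [] ≤ 3) := by
  have hG := dvd_G h
  have h1 := List.all_eq_true.1 chk_two w hw
  simp only [Bool.or_eq_true, beq_iff_eq, Bool.and_eq_true, decide_eq_true_eq] at h1
  rcases h1 with ((((h1 | h1) | h1) | ⟨h1, h2⟩) | ⟨h1, h2⟩) | h1
  · exact absurd h1 h0
  · exact Or.inl (hG.trans (Nat.dvd_of_mod_eq_zero h1))
  · exact Or.inr (Or.inl (hG.trans (Nat.dvd_of_mod_eq_zero h1)))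
  · exact Or.inr (Or.inr (Or.inl ⟨hG.trans (Nat.dvd_of_mod_eq_zero h1), h2⟩))
  · exact Or.inr (Or.inr (Or.inr ⟨hG.trans (Nat.dvd_of_mod_eq_zero h1), h2⟩))
  · exact absurd h1 hx

/-! ### the orders -/

/-- the conclusion of the computation -/
def okx (N n x : ℕ) : Bool :=
  !(3 * N % n == 0) || !(Nat.gcd x n == 1) || !(N % n == 0 || x % 3 == 1 || !(n % 3 == 0)) ||
  x % n == 1 % n || x ^ 2 % n == 1 % n || (x ^ 3 % n == 1 % n && n % 9 == 0 && x % 3 == 1) ||
  ((N == 12 || N == 9) && !(x ^ 3 % n == 1 % n))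

theorem chk_okx : ∀ N ∈ [8, 6, 12, 9], ∀ n < 37, 0 < n → ∀ x < n, okx N n x = true := by decide +kernel

theorem chk_sq : ∀ n < 37, 0 < n → (24 % n = 0 ∨ 18 % n = 0 ∨ 36 % n = 0 ∨ 27 % n = 0) → ∀ y < n,
    y ^ 4 % n = 1 % n → y ^ 2 % n = 1 % n := by decide +kernel

theorem arith {n r N D : ℕ} (hn : 0 < n) (hcop : Nat.Coprime r n) (h3 : n ∣ 3 * N) (h1 : r % 3 ≠ 1 → n ∣ N)
    (hper : r ^ D % n = 1 % n) (hD : 1 ≤ D) (hmin : ∀ d, 1 ≤ d → r ^ d % n = 1 % n → D ≤ d)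
    (hN : N ∣ 8 ∨ N ∣ 6 ∨ (N ∣ 12 ∧ D ≤ 3) ∨ (N ∣ 9 ∧ D ≤ 3)) :
    D ≤ 3 ∧ (D = 3 → 9 ∣ n ∧ r % 3 = 1 ∧ 3 ∣ N) ∧ ∀ y, r = y ^ 2 → D ≠ 2 := by
  obtain ⟨N0, hN0, hNN, hD3⟩ : ∃ N0 ∈ [8, 6, 12, 9], N ∣ N0 ∧ ((N0 = 12 ∨ N0 = 9) → D ≤ 3) := by
    rcases hN with h | h | ⟨h, h'⟩ | ⟨h, h'⟩
    · exact ⟨8, by simp, h, by omega⟩
    · exact ⟨6, by simp, h, by omega⟩
    · exact ⟨12, by simp, h, fun _ => h'⟩
    · exact ⟨9, by simp, h, fun _ => h'⟩
  have h30 : n ∣ 3 * N0 := h3.trans (Nat.mul_dvd_mul_left 3 hNN)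
  have hN0' : N0 ≤ 12 ∧ 0 < N0 := by
    simp only [List.mem_cons, List.not_mem_nil, or_false] at hN0
    omega
  have hn36 : n < 37 := by
    have := Nat.le_of_dvd (by omega) h30
    omega
  have hpow : ∀ d, r ^ d % n = (r % n) ^ d % n := fun d => Nat.pow_mod r d n
  have hx : r % n < n := Nat.mod_lt _ hn
  have hok := chk_okx N0 hN0 n hn36 hn (r % n) hx
  have hgcd : Nat.gcd (r % n) n = 1 := by
    rw [← Nat.gcd_rec, Nat.gcd_comm]
    exact hcop
  have hr3 : n % 3 = 0 → r % n % 3 = r % 3 := fun h => Nat.mod_mod_of_dvd r (Nat.dvd_of_mod_eq_zero h)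
  have key : r % n % 3 = 1 ∨ N0 % n = 0 ∨ n % 3 ≠ 0 := by
    by_cases h4 : n % 3 = 0
    · by_cases h5 : r % 3 = 1
      · left
        rw [hr3 h4, h5]
      · right
        left
        exact Nat.mod_eq_zero_of_dvd ((h1 h5).trans hNN)
    · exact Or.inr (Or.inr h4)
  have h30' : 3 * N0 % n = 0 := Nat.mod_eq_zero_of_dvd h30
  have hok' : r % n = 1 % n ∨ (r % n) ^ 2 % n = 1 % n ∨ ((r % n) ^ 3 % n = 1 % n ∧ n % 9 = 0 ∧ r % n % 3 = 1) ∨
      ((N0 = 12 ∨ N0 = 9) ∧ (r % n) ^ 3 % n ≠ 1 % n) := by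
    unfold okx at hok
    simp only [Bool.or_eq_true, Bool.and_eq_true, Bool.not_eq_true', beq_iff_eq, beq_eq_false_iff_ne, ne_eq,
      Bool.or_eq_false_iff, h30', hgcd, not_true_eq_false, false_or, Nat.mod_mod] at hok
    rcases hok with (((hok | hok) | hok) | hok) | hok
    · exfalso
      rcases key with h | h | h
      · exact hok.1.2 h
      · exact hok.1.1 h
      · simp only [Bool.not_eq_false', beq_iff_eq] at hok
        exact h hok.2
    · exact Or.inl hok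
    · exact Or.inr (Or.inl hok)
    · exact Or.inr (Or.inr (Or.inl ⟨hok.1.1, hok.1.2, hok.2⟩))
    · exact Or.inr (Or.inr (Or.inr hok))
  have hD33 : D ≤ 3 := by
    rcases hok' with h | h | h | h
    · have := hmin 1 le_rfl (by rw [pow_one]; exact h)
      omega
    · have := hmin 2 (by omega) (by rw [hpow]; exact h)
      omega
    · exact hmin 3 (by omega) (by rw [hpow]; exact h.1)
    · exact hD3 h.1
  refine ⟨hD33, fun hDe => ?_, fun y hy hD2 => ?_⟩
  · have h4 : n % 9 = 0 ∧ r % n % 3 = 1 := by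
      rcases hok' with h | h | h | h
      · have := hmin 1 le_rfl (by rw [pow_one]; exact h)
        omega
      · have := hmin 2 (by omega) (by rw [hpow]; exact h)
        omega
      · exact h.2
      · exfalso
        apply h.2
        rw [← hpow, ← hDe]
        exact hper
    have h9 : 9 ∣ n := Nat.dvd_of_mod_eq_zero h4.1
    refine ⟨h9, by rw [← hr3 (by omega)]; exact h4.2, ?_⟩
    have h5 : 9 ∣ 3 * N := h9.trans h3
    omega
  · rw [hD2] at hper
    have hnd : 24 % n = 0 ∨ 18 % n = 0 ∨ 36 % n = 0 ∨ 27 % n = 0 := by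
      simp only [List.mem_cons, List.not_mem_nil, or_false] at hN0
      rcases hN0 with rfl | rfl | rfl | rfl
      · exact Or.inl h30'
      · exact Or.inr (Or.inl h30')
      · exact Or.inr (Or.inr (Or.inl h30'))
      · exact Or.inr (Or.inr (Or.inr h30'))
    have h5 := chk_sq n hn36 hn hnd (y % n) (Nat.mod_lt _ hn) (by
      rw [← Nat.pow_mod, show y ^ 4 = (y ^ 2) ^ 2 by ring, ← hy]
      exact hper)
    rw [← Nat.pow_mod, ← hy] at h5
    have := hmin 1 le_rfl (by rw [pow_one]; exact h5)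
    omega

end Cfsg.Agent.R2.H8.NoFix.Num
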