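import Mathlib
import Cfsg.Agent.H65.E6Root
import Cfsg.Agent.R2.H9.E6.Cons

/-!
# S5749, S5750, box NOFIX: totally singular 3-spaces stable under `M` (helper8)

Variants of helper203's and helper65's `exists_two`, `root3`, `three_root` with a subgroup `S ≤ B` on which all
two-dimensional representations of `B` are trivial.
-/

set_option autoImplicit false

namespace Cfsg.Agent.R2.H8.NoFix.Three

open Cfsg.Lie Cfsg.Agent.ChevalleyStructure Cfsg.Agent.ChevalleyStructure.E6Form.Cubic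
  Cfsg.Agent.ChevalleyStructure.E6Form.Table Cfsg.Agent.ChevalleyStructure.E6Form.Elim Module
open Cfsg.Agent.ChevalleyStructure.E6Min.Basic (Zgrp zM zU)
open Cfsg.Agent.ChevalleyStructure.E6Min.Adjoint (ad ker_ad)
open Cfsg.Agent.H203.E6 Cfsg.Agent.H163.E6 Cfsg.Agent.H65.E6Root
open Cfsg.Agent.H184.GraphE6 (gU PU PU_sq dual dual_dual dual_mem_Zgrp coe_dual)
open scoped commutatorElement Matrix

universe u v

variable {F : Type u} [Field F]

theorem exists_two' {B : Subgroup ↥(Zgrp F)} {S : Set ↥B} (hB : ∀ θ : ↥B →* GL (Fin 2) F, ∀ b ∈ S, θ b = 1)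
    {W : Submodule F (I27 → F)} (h3 : finrank F ↥W = 3) (hW : Cfsg.Agent.H203.E6.TS W)
    (hst : ∀ b ∈ B, ∀ w ∈ W, act (b : GL I27 F) w ∈ W) :
    ∃ g ∈ Zgrp F, mp g W = Ws F T3 ∧ ∀ b ∈ S, ∀ j : Fin 2,
      cj (g * ((b : ↥(Zgrp F)) : GL I27 F) * g⁻¹) (nMat F j.val) = nMat F j.val := by
  obtain ⟨g, hg, hgW⟩ := exists_mp_eq3 hW h3
  have hstab : ∀ b ∈ B, mp (g * (b : GL I27 F) * g⁻¹) (Ws F T3) = Ws F T3 := by
    intro b hb
    have h1 : mp (b : GL I27 F) W = W := by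
      ext x
      rw [mem_mp]
      constructor
      · intro h
        have := hst b hb _ h
        rwa [act_act_inv] at this
      · intro h
        have := hst b⁻¹ (inv_mem hb) _ h
        exact this
    rw [← hgW, ← mp_mul, inv_mul_cancel_right, mp_mul, h1]
  have hmem : ∀ b : ↥B, g * ((b : ↥(Zgrp F)) : GL I27 F) * g⁻¹ ∈ Zgrp F := fun b =>
    mul_mem (mul_mem hg b.1.2) (inv_mem hg)
  let f : ↥B →* Matrix (Fin 2) (Fin 2) F :=
    { toFun := fun b => M2 (g * ((b : ↥(Zgrp F)) : GL I27 F) * g⁻¹)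
      map_one' := by
        have : g * (((1 : ↥B) : ↥(Zgrp F)) : GL I27 F) * g⁻¹ = 1 := by simp
        rw [this, M2_one]
      map_mul' := fun a b => by
        have : g * (((a * b : ↥B) : ↥(Zgrp F)) : GL I27 F) * g⁻¹ =
            (g * ((a : ↥(Zgrp F)) : GL I27 F) * g⁻¹) * (g * ((b : ↥(Zgrp F)) : GL I27 F) * g⁻¹) := by
          simp only [Subgroup.coe_mul]; group
        rw [this, M2_mul (hmem b) (hstab b b.2)] }
  refine ⟨g, hg, hgW, fun b hb j => ?_⟩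
  have h1 := hB f.toHomUnits b hb
  have h2 : M2 (g * ((b : ↥(Zgrp F)) : GL I27 F) * g⁻¹) = 1 := congrArg Units.val h1
  have h3 : ∀ i, co (cj (g * ((b : ↥(Zgrp F)) : GL I27 F) * g⁻¹) (nMat F j.val)) i = if i = j then 1 else 0 := by
    intro i
    have := congrFun (congrFun h2 i) j
    rwa [M2, Matrix.of_apply, Matrix.one_apply] at this
  rw [cj_eq (hmem b) (hstab b b.2) j, h3, h3]
  fin_cases j <;> simp

theorem root3_core' {B : Subgroup ↥(Zgrp F)} {S : Set ↥B} (hB : ∀ θ : ↥B →* GL (Fin 2) F, ∀ b ∈ S, θ b = 1)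
    {W : Submodule F (I27 → F)} (h3 : finrank F ↥W = 3) (hW : Cfsg.Agent.H203.E6.TS W)
    (hst : ∀ b ∈ B, ∀ w ∈ W, act (b : GL I27 F) w ∈ W) :
    ∃ N : Matrix I27 I27 F, Dir N ∧
      ∀ b ∈ S, (((b : ↥(Zgrp F)) : GL I27 F) : Matrix I27 I27 F) * N =
        N * (((b : ↥(Zgrp F)) : GL I27 F) : Matrix I27 I27 F) := by
  obtain ⟨g, hg, -, h⟩ := exists_two' hB h3 hW hst
  refine ⟨cN g, cN_dir hg, fun b hb => comm_cN ?_⟩
  have h1 := h b hb 0
  rw [Fin.val_zero] at h1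
  conv_rhs => rw [← h1]
  rw [cj, mul_assoc _ _ ((g * ((b : ↥(Zgrp F)) : GL I27 F) * g⁻¹ : GL I27 F) : Matrix I27 I27 F), val_inv_mul, mul_one]

theorem root3' (ρ : Representation F ↥(Zgrp F) (I27 → F)) (hρ : ρ = V F ∨ ρ = V' F) {B : Subgroup ↥(Zgrp F)} {S : Set ↥B}
    (hB : ∀ θ : ↥B →* GL (Fin 2) F, ∀ b ∈ S, θ b = 1) {W : Submodule F (I27 → F)} (h3 : finrank F ↥W = 3)
    (hW : Cfsg.Agent.H163.E6.TS W) (hst : ∀ b ∈ B, ∀ w ∈ W, ρ b w ∈ W) :
    ∃ N : Matrix I27 I27 F, Dir N ∧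
      ∀ b ∈ S, (((b : ↥(Zgrp F)) : GL I27 F) : Matrix I27 I27 F) * N =
        N * (((b : ↥(Zgrp F)) : GL I27 F) : Matrix I27 I27 F) := by
  rcases hρ with rfl | rfl
  · exact root3_core' hB h3 (TS_of hW) hst
  · obtain ⟨h1, h2⟩ := to_dual hW hst
    obtain ⟨N, hN, h⟩ := root3_core' (B := B.map (δ F)) (S := {c | ∃ b ∈ S, (δ F).subgroupMap B b = c})
      (fun θ c hc => by
        obtain ⟨b, hb, rfl⟩ := hc
        exact hB (θ.comp ((δ F).subgroupMap B)) b hb) (by rw [finrank_mp, h3]) h1 h2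
    refine ⟨Nᵀ, hN.transpose, fun b hb => ?_⟩
    have h4 := h ((δ F).subgroupMap B b) ⟨b, hb, rfl⟩
    -- transpose
    have h5 : ((((δ F).subgroupMap B b : ↥(B.map (δ F))) : ↥(Zgrp F)) : GL I27 F) =
        dual (((b : ↥(Zgrp F)) : GL I27 F)) := rfl
    rw [h5] at h4
    have h7 := congrArg Matrix.transpose h4
    rw [Matrix.transpose_mul, Matrix.transpose_mul, coe_dual, Matrix.transpose_transpose] at h7
    -- the inverse commutes
    have h8 : ((((b : ↥(Zgrp F)) : GL I27 F)⁻¹ : GL I27 F) : Matrix I27 I27 F) * Nᵀ =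
        Nᵀ * ((((b : ↥(Zgrp F)) : GL I27 F)⁻¹ : GL I27 F) : Matrix I27 I27 F) := h7.symm
    calc ((((b : ↥(Zgrp F)) : GL I27 F)) : Matrix I27 I27 F) * Nᵀ
        = ((((b : ↥(Zgrp F)) : GL I27 F)) : Matrix I27 I27 F) * (Nᵀ *
          ((((b : ↥(Zgrp F)) : GL I27 F)⁻¹ : GL I27 F) : Matrix I27 I27 F)) *
          ((((b : ↥(Zgrp F)) : GL I27 F)) : Matrix I27 I27 F) := by
          rw [mul_assoc, mul_assoc, val_inv_mul, mul_one]
      _ = _ := by rw [← h8, ← mul_assoc, val_mul_inv, one_mul]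

/-- **no totally singular 3-dimensional subspace is stable under `M`**, if all two-dimensional representations of `M` are
trivial on `ψ(A)` -/
theorem no_three {Γ M : Subgroup ↥(Zgrp F)} {A : Type v} [Group A] {ψ : A →* ↥(Zgrp F)}
    (h : Cfsg.Agent.R2.H9.E6.Setup Γ M ψ) (h2 : ∀ θ : ↥M →* GL (Fin 2) F, ∀ a, θ ⟨ψ a, h.mem_M a⟩ = 1)
    {ρ : Representation F ↥(Zgrp F) (I27 → F)} (hρ : ρ = V F ∨ ρ = V' F)
    {W : Submodule F (I27 → F)} (hst : ∀ g ∈ M, ∀ w ∈ W, ρ g w ∈ W) (h3 : finrank F ↥W = 3)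
    (hW : ∀ x ∈ W, Cfsg.Agent.H952.F4.sh x = 0) : False := by
  have hts : Cfsg.Agent.H163.E6.TS W := by
    refine ⟨hW, fun x hx y hy => ?_⟩
    have h := Cfsg.Agent.H952.F4.Jord.sh_add x y
    rw [hW _ (W.add_mem hx hy), hW x hx, hW y hy] at h
    simpa using h.symm
  obtain ⟨N, hN, hNc⟩ := root3' ρ hρ (B := M) (S := {m | ∃ a, m = ⟨ψ a, h.mem_M a⟩}) (by
    rintro θ _ ⟨a, rfl⟩
    exact h2 θ a) h3 hts hst
  obtain ⟨m, h4, h5, h6, h7⟩ := hN.exists_lin (B := ψ.range) (by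
    rintro _ ⟨a, rfl⟩
    exact hNc ⟨ψ a, h.mem_M a⟩ ⟨a, rfl⟩)
  exact h.false_of_root h4 h5 h6 h7

end Cfsg.Agent.R2.H8.NoFix.Three
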